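import Mathlib
import Cfsg.Prelude.Def_LieTypeDatum
import Cfsg.Agent.Lib.Helper43.FieldAut.Cent

set_option autoImplicit false

/-!
# Local balance for the minus-type orthogonal groups, field case: abstract lemmas
-/

namespace Cfsg.Agent.Lib.Helper8.OMinusBal

open Cfsg.Agent.Lib.Helper43.FieldAut (IsFixEmb)

/-- An anisotropic binary quadratic form over a finite field. -/
theorem exists_aniso (K : Type*) [Field K] [Finite K] :
    ∃ b : K, ∀ z₁ z₂ : K, z₁ ^ 2 + 1 * z₁ * z₂ + b * z₂ ^ 2 = 0 → z₁ = 0 ∧ z₂ = 0 := by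
  have hni : ¬ Function.Injective (fun t : K => t ^ 2 + t) := by
    intro h
    have h1 : (0 : K) = -1 := h (by
      show (0 : K) ^ 2 + 0 = (-1) ^ 2 + (-1)
      ring)
    have h2 : (1 : K) = 0 := by linear_combination h1
    exact one_ne_zero h2
  have hns : ¬ Function.Surjective (fun t : K => t ^ 2 + t) :=
    fun h => hni (Finite.injective_iff_surjective.mpr h)
  obtain ⟨c, hc⟩ : ∃ c : K, ∀ t : K, t ^ 2 + t ≠ c := by
    by_contra hcon
    push_neg at hcon
    exact hns hcon
  refine ⟨-c, ?_⟩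
  intro z₁ z₂ h
  by_cases hz : z₂ = 0
  · subst hz
    have h1 : z₁ ^ 2 = 0 := by linear_combination h
    exact ⟨pow_eq_zero_iff (two_ne_zero) |>.mp h1, rfl⟩
  · exfalso
    apply hc (z₁ / z₂)
    field_simp
    linear_combination h

/-- An anisotropic binary form over the fixed field of an automorphism of odd order stays
anisotropic. -/
theorem aniso_lift {F F₀ : Type*} [Field F] [Field F₀] (σ : RingAut F) (j : F₀ →+* F)
    (hj : IsFixEmb σ j) (p : ℕ) (hp : Odd p) (hσ : σ ^ p = 1) (a₀ b₀ : F₀)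
    (h₀ : ∀ z₁ z₂ : F₀, z₁ ^ 2 + a₀ * z₁ * z₂ + b₀ * z₂ ^ 2 = 0 → z₁ = 0 ∧ z₂ = 0) :
    ∀ z₁ z₂ : F, z₁ ^ 2 + j a₀ * z₁ * z₂ + j b₀ * z₂ ^ 2 = 0 → z₁ = 0 ∧ z₂ = 0 := by
  intro z₁ z₂ h
  by_cases hz : z₂ = 0
  · subst hz
    have h1 : z₁ ^ 2 = 0 := by linear_combination h
    exact ⟨pow_eq_zero_iff (two_ne_zero) |>.mp h1, rfl⟩
  · exfalso
    obtain ⟨t, ht⟩ : ∃ t : F, t = z₁ / z₂ := ⟨_, rfl⟩
    have hroot : t ^ 2 + j a₀ * t + j b₀ = 0 := by
      rw [ht]
      field_simp
      linear_combination h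
    have hσa : σ (j a₀) = j a₀ := (hj _).mpr ⟨a₀, rfl⟩
    have hσb : σ (j b₀) = j b₀ := (hj _).mpr ⟨b₀, rfl⟩
    have hroot' : (σ t) ^ 2 + j a₀ * σ t + j b₀ = 0 := by
      have h1 := congrArg σ hroot
      rw [map_add, map_add, map_pow, map_mul, hσa, hσb, map_zero] at h1
      exact h1
    have h2 : σ (σ t) = t := by
      have hprod : (σ t - t) * (σ t + t + j a₀) = 0 := by linear_combination hroot' - hroot
      rcases mul_eq_zero.mp hprod with h1 | h1
      · have h3 : σ t = t := sub_eq_zero.mp h1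
        rw [h3, h3]
      · have e : σ t = -t - j a₀ := by linear_combination h1
        rw [e, map_sub, map_neg, hσa, e]
        ring
    have hfix : σ t = t := by
      obtain ⟨k, hk⟩ := hp
      have h3 : ∀ n : ℕ, (σ ^ (2 * n)) t = t := by
        intro n
        induction n with
        | zero => rfl
        | succ n ih =>
          rw [show 2 * (n + 1) = 2 * n + 2 by ring, pow_add, RingAut.mul_apply, pow_two,
            RingAut.mul_apply, h2, ih]
      have h4 : (σ ^ p) (σ t) = σ t := by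
        rw [hσ]
        rfl
      have h5 : (σ ^ (2 * (k + 1))) t = σ t := by
        rw [show 2 * (k + 1) = p + 1 by omega, pow_succ, RingAut.mul_apply]
        exact h4
      rw [← h5, h3]
    obtain ⟨t₀, ht₀⟩ := (hj t).mp hfix
    have h6 := h₀ t₀ 1 (by
      apply j.injective
      rw [map_add, map_add, map_mul, map_mul, map_mul, map_pow, map_pow, map_one, map_zero, ht₀]
      linear_combination hroot)
    exact one_ne_zero h6.2

/-- If a subgroup `H` contains `d` or `d * c` for every `d`, an element with an odd power in `H`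
lies in `H`. -/
theorem mem_of_odd_pow {G : Type*} [Group G] (H : Subgroup G) (c : G)
    (hc : ∀ d : G, d ∈ H ∨ d * c ∈ H) (g : G) (k : ℕ) (hk : Odd k) (hg : g ^ k ∈ H) :
    g ∈ H := by
  by_cases hcH : c ∈ H
  · rcases hc g with h | h
    · exact h
    · have h1 := H.mul_mem h (H.inv_mem hcH)
      rwa [mul_inv_cancel_right] at h1
  · have hcc : c * c ∈ H := (hc c).resolve_left hcH
    have hsq : g * g ∈ H := by
      rcases hc g with h | h
      · exact H.mul_mem h h
      · rcases hc (c⁻¹ * (g * c)) with h' | h'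
        · exfalso
          apply hcH
          have h1 := H.mul_mem h' (H.inv_mem h)
          rw [mul_inv_cancel_right] at h1
          exact H.inv_mem_iff.mp h1
        · have e : g * g = (g * c) * (c⁻¹ * (g * c) * c) * (c * c)⁻¹ := by group
          rw [e]
          exact H.mul_mem (H.mul_mem h h') (H.inv_mem hcc)
    obtain ⟨n, rfl⟩ := hk
    have h2 : (g * g) ^ n ∈ H := H.pow_mem hsq n
    have e : g = g ^ (2 * n + 1) * ((g * g) ^ n)⁻¹ := by
      rw [← pow_two, ← pow_mul, pow_succ', mul_inv_cancel_right]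
    rw [e]
    exact H.mul_mem hg (H.inv_mem h2)

theorem conj_apply_aut' {G : Type*} [Group G] (α : MulAut G) (q : G) :
    MulAut.conj (α q) = α * MulAut.conj q * α⁻¹ := by
  ext y
  simp only [MulAut.conj_apply, MulAut.mul_apply, MulAut.inv_apply, map_mul, map_inv,
    MulEquiv.apply_symm_apply]

/-- The fixed points of an automorphism correspond to the inner automorphisms commuting with
it. -/
theorem card_fix_eq_gen {K : Type*} [Group K]
    (hinj : Function.Injective (MulAut.conj : K →* MulAut K)) (x : MulAut K) :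
    Nat.card ↥(MonoidHom.eqLocus x.toMonoidHom (MonoidHom.id K)) =
      Nat.card ↥(Cfsg.Inn K ⊓ Subgroup.centralizer {x}) := by
  apply Nat.card_congr
  refine Equiv.ofBijective (fun k => ⟨MulAut.conj (k : K), ⟨⟨k, rfl⟩, ?_⟩⟩) ⟨?_, ?_⟩
  · show MulAut.conj (k : K) ∈ Subgroup.centralizer {x}
    rw [Subgroup.mem_centralizer_iff]
    intro y hy
    rw [Set.mem_singleton_iff] at hy
    subst hy
    have hk : y (k : K) = k := k.2
    have h1 := conj_apply_aut' y (k : K)
    rw [hk] at h1
    calc y * MulAut.conj (k : K)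
        = (y * MulAut.conj (k : K) * y⁻¹) * y := by group
      _ = MulAut.conj (k : K) * y := by rw [← h1]
  · intro a b hab
    have h1 := congrArg Subtype.val hab
    exact Subtype.ext (hinj h1)
  · rintro ⟨y, ⟨k, rfl⟩, hc⟩
    refine ⟨⟨k, ?_⟩, rfl⟩
    have h1 := (Subgroup.mem_centralizer_iff.mp hc) x rfl
    have h3 : MulAut.conj (x k) = MulAut.conj k := by
      rw [conj_apply_aut', h1, mul_inv_cancel_right]
    exact hinj h3

section mat

variable {ι : Type*} [Fintype ι] [DecidableEq ι] {F : Type*} [Field F]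

theorem one_add_smul_pow (N : Matrix ι ι F) (hN : N * N = 0) (c : F) (k : ℕ) :
    (1 + c • N) ^ k = 1 + ((k : F) * c) • N := by
  induction k with
  | zero => simp
  | succ k ih =>
    rw [pow_succ, ih]
    simp only [Matrix.add_mul, Matrix.mul_add, Matrix.one_mul, Matrix.mul_one, Matrix.smul_mul,
      Matrix.mul_smul, hN, smul_zero, add_zero, Nat.cast_succ]
    rw [add_mul, one_mul, add_smul]
    abel

/-- A scalar relating conjugate unipotent matrices is `1`. -/
theorem scalar_eq_one_of_unip [Nonempty ι] (r : ℕ) [Fact r.Prime] [CharP F r]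
    (G N N' : Matrix ι ι F) (hG : G.det ≠ 0) (hN : N * N = 0) (hN' : N' * N' = 0)
    (c c' lam : F) (h : G * (1 + c' • N') = lam • ((1 + c • N) * G)) : lam = 1 := by
  have key : ∀ k : ℕ, G * (1 + c' • N') ^ k = lam ^ k • ((1 + c • N) ^ k * G) := by
    intro k
    induction k with
    | zero => simp
    | succ k ih =>
      rw [pow_succ, ← Matrix.mul_assoc, ih, Matrix.smul_mul, Matrix.mul_assoc, h, Matrix.mul_smul,
        smul_smul, ← Matrix.mul_assoc, ← pow_succ, ← pow_succ]
  have h1 := key r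
  simp only [one_add_smul_pow N' hN', one_add_smul_pow N hN, CharP.cast_eq_zero, zero_mul,
    zero_smul, add_zero, Matrix.mul_one, Matrix.one_mul] at h1
  have hG0 : G ≠ 0 := by
    rintro rfl
    exact hG Matrix.det_zero
  obtain ⟨i, k, hik⟩ : ∃ i k, G i k ≠ 0 := by
    by_contra hcon
    push_neg at hcon
    apply hG0
    ext i k
    exact hcon i k
  have h2 := congrFun (congrFun h1 i) k
  rw [Matrix.smul_apply, smul_eq_mul] at h2
  have h3 : lam ^ r = 1 := by
    have h4 : (lam ^ r - 1) * G i k = 0 := by linear_combination -h2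
    rcases mul_eq_zero.mp h4 with h5 | h5
    · exact sub_eq_zero.mp h5
    · exact absurd h5 hik
  have h4 : (lam - 1) ^ r = 0 := by
    rw [sub_pow_char, h3, one_pow, sub_self]
  exact sub_eq_zero.mp (pow_eq_zero_iff (Fact.out : r.Prime).ne_zero |>.mp h4)

/-- The twisted commutation relations for a one-parameter unipotent group force the parameter to
be fixed. -/
theorem param_fix_of_unip [Nonempty ι] (r : ℕ) [Fact r.Prime] [CharP F r]
    (G N N' : Matrix ι ι F) (hG : G.det ≠ 0) (hN : N * N = 0) (hN' : N' * N' = 0) (hN0 : N ≠ 0)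
    (t t' lam lam₁ : F)
    (h1 : G * (1 + (1 : F) • N') = lam₁ • ((1 + (1 : F) • N) * G))
    (ht : G * (1 + t' • N') = lam • ((1 + t • N) * G)) : t' = t := by
  have e1 := scalar_eq_one_of_unip r G N N' hG hN hN' 1 1 lam₁ h1
  have e2 := scalar_eq_one_of_unip r G N N' hG hN hN' t t' lam ht
  rw [e1, one_smul, one_smul, one_smul, Matrix.mul_add, Matrix.add_mul, Matrix.mul_one,
    Matrix.one_mul] at h1
  have hGN : G * N' = N * G := add_left_cancel h1
  rw [e2, one_smul, Matrix.mul_add, Matrix.add_mul, Matrix.mul_one, Matrix.one_mul,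
    Matrix.mul_smul, Matrix.smul_mul, hGN] at ht
  have h3 : t' • (N * G) = t • (N * G) := add_left_cancel ht
  have hNG : N * G ≠ 0 := by
    intro h0
    apply hN0
    have h4 := congrArg (fun M : Matrix ι ι F => M * G⁻¹) h0
    simp only [Matrix.mul_assoc, Matrix.mul_nonsing_inv G (isUnit_iff_ne_zero.mpr hG),
      Matrix.mul_one, Matrix.zero_mul] at h4
    exact h4
  by_contra hne
  apply hNG
  have h4 : (t' - t) • (N * G) = 0 := by rw [sub_smul, h3, sub_self]
  exact (smul_eq_zero.mp h4).resolve_left (sub_ne_zero.mpr hne)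

/-- Transport of a twisted commutation relation along a frame. -/
theorem conj_rel (A At G H Ht D Dt : Matrix ι ι F) (lam : F) (hAu : IsUnit A.det)
    (hH : H * A = A * D) (hHt : Ht * At = At * Dt) (hrel : G * Ht = lam • (H * G)) :
    (A⁻¹ * G * At) * Dt = lam • (D * (A⁻¹ * G * At)) := by
  have hAi : A⁻¹ * H = D * A⁻¹ := by
    calc A⁻¹ * H = A⁻¹ * H * (A * A⁻¹) := by rw [Matrix.mul_nonsing_inv A hAu, Matrix.mul_one]
      _ = A⁻¹ * (H * A) * A⁻¹ := by simp only [Matrix.mul_assoc]
      _ = A⁻¹ * (A * D) * A⁻¹ := by rw [hH]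
      _ = (A⁻¹ * A) * D * A⁻¹ := by simp only [Matrix.mul_assoc]
      _ = D * A⁻¹ := by rw [Matrix.nonsing_inv_mul A hAu, Matrix.one_mul]
  calc A⁻¹ * G * At * Dt = A⁻¹ * G * (At * Dt) := by simp only [Matrix.mul_assoc]
    _ = A⁻¹ * G * (Ht * At) := by rw [hHt]
    _ = A⁻¹ * (G * Ht) * At := by simp only [Matrix.mul_assoc]
    _ = A⁻¹ * (lam • (H * G)) * At := by rw [hrel]
    _ = lam • (A⁻¹ * H * G * At) := by
      simp only [Matrix.mul_smul, Matrix.smul_mul, Matrix.mul_assoc]
    _ = lam • (D * A⁻¹ * G * At) := by rw [hAi]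
    _ = lam • (D * (A⁻¹ * G * At)) := by simp only [Matrix.mul_assoc]

end mat

end Cfsg.Agent.Lib.Helper8.OMinusBal
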