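import Mathlib
import Cfsg.Prelude.Def_LieTypeDatum
import Cfsg.Agent.Lib.Helper14.FldP
import Cfsg.Agent.Lib.Helper14.POmegaSimple
import Cfsg.Agent.Lib.Helper44.MinusInnDiag
import Cfsg.Agent.Lib.Helper8.OMinusBal.Basic

set_option autoImplicit false

/-!
# Local balance for the minus-type orthogonal groups, field case: the subfield subgroup

`Ω⁻` over the fixed field of a field automorphism, inside the automorphism group of `PΩ⁻`.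
-/

namespace Cfsg.Agent.Lib.Helper8.OMinusBal

open Matrix Module
open Cfsg.Agent.Lib.Helper14
open Cfsg.Agent.Lib.Helper44 (simAut simMult simMult_spec isomAut)
open Cfsg.Agent.Lib.Helper43.FieldAut (IsFixEmb)

section gen

variable {ι : Type} [Fintype ι] [DecidableEq ι] {K : Type*} [Field K]

/-- `Ω(Q)` inside the similarity group. -/
noncomputable def omSim (Qf : (ι → K) → K) :
    ↥(Cfsg.Omega K Qf) →* ↥(Cfsg.Geo.quadSimilarityGroup (F := K) Qf) :=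
  (Subgroup.inclusion (Cfsg.Agent.Lib.Helper44.isometryGroup_le_sim Qf)).comp
    (Cfsg.Omega K Qf).subtype

theorem omSim_coe (Qf : (ι → K) → K) (ω : ↥(Cfsg.Omega K Qf)) :
    ((omSim Qf ω : ↥(Cfsg.Geo.quadSimilarityGroup (F := K) Qf)) : GL ι K) =
      ((ω : ↥(Cfsg.isometryGroup K Qf)) : GL ι K) := rfl

theorem simAut_omSim (Qf : (ι → K) → K) (ω : ↥(Cfsg.Omega K Qf)) :
    simAut Qf (omSim Qf ω) = MulAut.conj (QuotientGroup.mk ω : Cfsg.POmega K Qf) := by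
  rw [simAut_of_isom Qf (ω : ↥(Cfsg.isometryGroup K Qf)) (omSim Qf ω) rfl]
  apply MulEquiv.ext
  intro q
  obtain ⟨s, rfl⟩ := QuotientGroup.mk_surjective q
  rw [Cfsg.Agent.Lib.Helper44.isomAut_mk, MulAut.conj_apply, ← QuotientGroup.mk_mul,
    ← QuotientGroup.mk_inv, ← QuotientGroup.mk_mul]
  congr 1

/-- Conjugating an element of `Ω` by a similarity. -/
theorem exists_omSim_conj (Qf : (ι → K) → K)
    (d : ↥(Cfsg.Geo.quadSimilarityGroup (F := K) Qf)) (ω : ↥(Cfsg.Omega K Qf)) :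
    ∃ ω' : ↥(Cfsg.Omega K Qf), omSim Qf ω' = d * omSim Qf ω * d⁻¹ :=
  ⟨Cfsg.Agent.Lib.Helper44.autCommutator ↥(Cfsg.isometryGroup K Qf)
    (Cfsg.Agent.Lib.Helper44.simConjHom Qf d) ω, rfl⟩

theorem odd_card_of_two_ne_zero [Fintype K] (h2 : (2 : K) ≠ 0) : Odd (Fintype.card K) := by
  rw [Nat.odd_iff]
  apply FiniteField.odd_card_of_char_ne_two
  intro h
  apply h2
  have h1 := ringChar.Nat.cast_ringChar (R := K)
  rw [h] at h1
  exact_mod_cast h1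

end gen

section card

universe u

variable {K : Type u} [Field K] [Fintype K]

set_option maxHeartbeats 1600000 in
/-- The index of `Inn` in `Inndiag` divides `4`. -/
theorem card_hp_dvd (m : ℕ) (hm : 3 ≤ m) (hm2 : 2 ≤ m) (a b : K)
    (hab : ∀ z₁ z₂ : K, z₁ ^ 2 + a * z₁ * z₂ + b * z₂ ^ 2 = 0 → z₁ = 0 ∧ z₂ = 0)
    (Qf : ((Fin m ⊕ Fin m) ⊕ Fin 2 → K) → K) (hQf : ⇑(minusQF m K a b) = Qf) :
    Nat.card ↥((hpSub m hm2 a b hab Qf hQf).map (simAut Qf)) ∣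
      4 * Nat.card (Cfsg.POmega K Qf) := by
  have hinj : Function.Injective
      (MulAut.conj : Cfsg.POmega K Qf →* MulAut (Cfsg.POmega K Qf)) := by
    subst hQf
    exact conj_injective_POmega (minusQF m K a b)
      (Cfsg.Agent.Lib.Helper44.minusQF_nondegenerate_all m K a b hab)
      (by rw [minus_card_idx]; omega)
  have hcI : Nat.card ↥(Cfsg.Inn (Cfsg.POmega K Qf)) = Nat.card (Cfsg.POmega K Qf) :=
    Nat.card_congr (MonoidHom.ofInjective hinj).symm.toEquiv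
  rw [← hcI]
  by_cases h2c : (2 : K) = 0
  · have hle : (hpSub m hm2 a b hab Qf hQf).map (simAut Qf) ≤
        Cfsg.Inn (Cfsg.POmega K Qf) := by
      subst hQf
      exact inndiag_le_inn_char2 h2c m hm2 a b hab
    exact dvd_trans (Subgroup.card_dvd_of_le hle) (dvd_mul_left _ _)
  · have hodd := odd_card_of_two_ne_zero h2c
    have hmain := Cfsg.Agent.Lib.Helper44.minus_inndiag_inn hodd m hm a b hab
    have hQf' : Cfsg.quadFormMinus m K a b = Qf := by rw [← hQf, minusQF_coe]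
    subst hQf'
    rw [← inndiag_eq_map m hm2 a b hab]
    have hle : Cfsg.Inn (Cfsg.POmega K (Cfsg.quadFormMinus m K a b)) ≤
        Cfsg.inndiagPOmegaMinus m K a b := by
      rw [inndiag_eq_map m hm2 a b hab]
      exact inn_le_hp m hm2 a b hab _ (minusQF_coe m K a b)
    have key : ∀ (n : ℕ) [NeZero n], n ∣ 4 →
        ∀ φ : ↥(Cfsg.inndiagPOmegaMinus m K a b) →* Multiplicative (ZMod n),
        φ.ker = (Cfsg.Inn (Cfsg.POmega K (Cfsg.quadFormMinus m K a b))).subgroupOf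
          (Cfsg.inndiagPOmegaMinus m K a b) →
        Nat.card ↥(Cfsg.inndiagPOmegaMinus m K a b) ∣
          4 * Nat.card ↥(Cfsg.Inn (Cfsg.POmega K (Cfsg.quadFormMinus m K a b))) := by
      intro n _ hn φ hker
      have h1 := Subgroup.card_mul_index φ.ker
      rw [Subgroup.index_ker, hker,
        Nat.card_congr (Subgroup.subgroupOfEquivOfLe hle).toEquiv] at h1
      rw [← h1, mul_comm]
      apply Nat.mul_dvd_mul _ dvd_rfl
      have h3 : Nat.card ↥φ.range ∣ Nat.card (Multiplicative (ZMod n)) :=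
        Subgroup.card_subgroup_dvd_card _
      rw [Nat.card_congr (Multiplicative.toAdd : Multiplicative (ZMod n) ≃ ZMod n),
        Nat.card_zmod] at h3
      exact dvd_trans h3 hn
    by_cases hc : Even m ∧ Fintype.card K % 4 = 3
    · obtain ⟨φ, -, hker⟩ := hmain.1 hc
      exact key 4 dvd_rfl φ hker
    · obtain ⟨φ, -, hker⟩ := hmain.2 hc
      exact key 2 ⟨2, rfl⟩ φ hker

end card

section frame

universe u u₀

variable {F : Type u} [Field F] [Fintype F] {F₀ : Type u₀} [Field F₀] [Fintype F₀]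
variable (j : F₀ →+* F) (m : ℕ) (a b : F) (a₀ b₀ : F₀)
  (A : Matrix ((Fin m ⊕ Fin m) ⊕ Fin 2) ((Fin m ⊕ Fin m) ⊕ Fin 2) F) (κ : F)
  (hA : A.det ≠ 0) (hκ : κ ≠ 0)
  (h2 : ∀ v, κ * minusQF m F a b (A *ᵥ v) = Cfsg.quadFormMinus m F (j a₀) (j b₀) v)

/-- The embedding of the isometry group over the subfield via a frame. -/
noncomputable def frameIso :
    ↥(Cfsg.isometryGroup F₀ ⇑(minusQF m F₀ a₀ b₀)) →*
      ↥(Cfsg.isometryGroup F ⇑(minusQF m F a b)) :=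
  MonoidHom.codRestrict
    ((Cfsg.Geo.quadSimilarityGroup (F := F) ⇑(minusQF m F a b)).subtype.comp
      ((frameHom j m a b a₀ b₀ A κ hA hκ h2).comp
        (Subgroup.inclusion (Cfsg.Agent.Lib.Helper44.isometryGroup_le_sim
          ⇑(minusQF m F₀ a₀ b₀)))))
    (Cfsg.isometryGroup F ⇑(minusQF m F a b))
    (fun g => by
      have hmult : (simMult ⇑(minusQF m F₀ a₀ b₀)
          (Subgroup.inclusion (Cfsg.Agent.Lib.Helper44.isometryGroup_le_sim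
            ⇑(minusQF m F₀ a₀ b₀)) g) : F₀) = 1 := by
        apply Cfsg.Agent.Lib.Helper44.simMult_unique _ (minus_quad_ne m a₀ b₀)
        intro v
        rw [one_mul]
        exact isom_preserves g v
      exact (mem_isometryGroup_iff _ _).mpr (fun v => by
        rw [MonoidHom.comp_apply, MonoidHom.comp_apply, Subgroup.coe_subtype, frameHom_sim,
          hmult, map_one, one_mul]))

theorem frameIso_coe (g : ↥(Cfsg.isometryGroup F₀ ⇑(minusQF m F₀ a₀ b₀))) :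
    ((frameIso j m a b a₀ b₀ A κ hA hκ h2 g : ↥(Cfsg.isometryGroup F ⇑(minusQF m F a b))) :
      GL ((Fin m ⊕ Fin m) ⊕ Fin 2) F) =
    (frameHom j m a b a₀ b₀ A κ hA hκ h2
      (Subgroup.inclusion (Cfsg.Agent.Lib.Helper44.isometryGroup_le_sim
        ⇑(minusQF m F₀ a₀ b₀)) g) : GL ((Fin m ⊕ Fin m) ⊕ Fin 2) F) := rfl

theorem frameIso_mem_omega (ω : ↥(Cfsg.Omega F₀ ⇑(minusQF m F₀ a₀ b₀))) :
    frameIso j m a b a₀ b₀ A κ hA hκ h2 (ω : ↥(Cfsg.isometryGroup F₀ ⇑(minusQF m F₀ a₀ b₀))) ∈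
      Cfsg.Omega F ⇑(minusQF m F a b) := by
  have h : (commutator ↥(Cfsg.isometryGroup F₀ ⇑(minusQF m F₀ a₀ b₀))).map
      (frameIso j m a b a₀ b₀ A κ hA hκ h2) ≤
      commutator ↥(Cfsg.isometryGroup F ⇑(minusQF m F a b)) := by
    rw [commutator_def, Subgroup.map_commutator, commutator_def]
    exact Subgroup.commutator_mono le_top le_top
  exact h ⟨ω, ω.2, rfl⟩

/-- `Ω` over the subfield, mapped to the automorphism group of `PΩ` over the big field. -/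
noncomputable def phiL :
    ↥(Cfsg.Omega F₀ ⇑(minusQF m F₀ a₀ b₀)) →* MulAut (Cfsg.POmega F ⇑(minusQF m F a b)) :=
  (simAut ⇑(minusQF m F a b)).comp
    ((frameHom j m a b a₀ b₀ A κ hA hκ h2).comp (omSim ⇑(minusQF m F₀ a₀ b₀)))

theorem phiL_apply (ω : ↥(Cfsg.Omega F₀ ⇑(minusQF m F₀ a₀ b₀))) :
    phiL j m a b a₀ b₀ A κ hA hκ h2 ω =
      simAut ⇑(minusQF m F a b)
        (frameHom j m a b a₀ b₀ A κ hA hκ h2 (omSim ⇑(minusQF m F₀ a₀ b₀) ω)) := rfl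

theorem phiL_mem_inn (ω : ↥(Cfsg.Omega F₀ ⇑(minusQF m F₀ a₀ b₀))) :
    phiL j m a b a₀ b₀ A κ hA hκ h2 ω ∈ Cfsg.Inn (Cfsg.POmega F ⇑(minusQF m F a b)) := by
  have hmem := frameIso_mem_omega j m a b a₀ b₀ A κ hA hκ h2 ω
  have e : frameHom j m a b a₀ b₀ A κ hA hκ h2 (omSim ⇑(minusQF m F₀ a₀ b₀) ω) =
      omSim ⇑(minusQF m F a b) ⟨frameIso j m a b a₀ b₀ A κ hA hκ h2
        (ω : ↥(Cfsg.isometryGroup F₀ ⇑(minusQF m F₀ a₀ b₀))), hmem⟩ := Subtype.ext rfl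
  rw [phiL_apply, e, simAut_omSim]
  exact ⟨_, rfl⟩

theorem phiL_ker (hm : 3 ≤ m)
    (hab : ∀ z₁ z₂ : F, z₁ ^ 2 + a * z₁ * z₂ + b * z₂ ^ 2 = 0 → z₁ = 0 ∧ z₂ = 0)
    (hab₀ : ∀ z₁ z₂ : F₀, z₁ ^ 2 + a₀ * z₁ * z₂ + b₀ * z₂ ^ 2 = 0 → z₁ = 0 ∧ z₂ = 0) :
    (phiL j m a b a₀ b₀ A κ hA hκ h2).ker =
      Subgroup.center ↥(Cfsg.Omega F₀ ⇑(minusQF m F₀ a₀ b₀)) := by
  have hinj := conj_injective_POmega (minusQF m F₀ a₀ b₀)
    (Cfsg.Agent.Lib.Helper44.minusQF_nondegenerate_all m F₀ a₀ b₀ hab₀)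
    (by rw [minus_card_idx]; omega)
  ext ω
  rw [MonoidHom.mem_ker, phiL_apply,
    frameHom_simAut_eq_one_iff j m hm a b hab a₀ b₀ hab₀ A κ hA hκ h2, simAut_omSim]
  constructor
  · intro h
    have h1 : (QuotientGroup.mk ω : Cfsg.POmega F₀ ⇑(minusQF m F₀ a₀ b₀)) = 1 :=
      hinj (by rw [h, map_one])
    exact (QuotientGroup.eq_one_iff ω).mp h1
  · intro h
    rw [(QuotientGroup.eq_one_iff ω).mpr h, map_one]

/-- The image is isomorphic to `PΩ` over the subfield. -/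
theorem phiL_range_equiv (hm : 3 ≤ m)
    (hab : ∀ z₁ z₂ : F, z₁ ^ 2 + a * z₁ * z₂ + b * z₂ ^ 2 = 0 → z₁ = 0 ∧ z₂ = 0)
    (hab₀ : ∀ z₁ z₂ : F₀, z₁ ^ 2 + a₀ * z₁ * z₂ + b₀ * z₂ ^ 2 = 0 → z₁ = 0 ∧ z₂ = 0) :
    Nonempty (↥(phiL j m a b a₀ b₀ A κ hA hκ h2).range ≃*
      Cfsg.POmega F₀ ⇑(minusQF m F₀ a₀ b₀)) := by
  have e1 := QuotientGroup.quotientKerEquivRange (phiL j m a b a₀ b₀ A κ hA hκ h2)
  have e2 : ↥(Cfsg.Omega F₀ ⇑(minusQF m F₀ a₀ b₀)) ⧸ (phiL j m a b a₀ b₀ A κ hA hκ h2).ker ≃*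
      Cfsg.POmega F₀ ⇑(minusQF m F₀ a₀ b₀) :=
    QuotientGroup.quotientMulEquivOfEq (phiL_ker j m a b a₀ b₀ A κ hA hκ h2 hm hab hab₀)
  exact ⟨e1.symm.trans e2⟩

theorem phiL_range_simple (hm : 3 ≤ m)
    (hab : ∀ z₁ z₂ : F, z₁ ^ 2 + a * z₁ * z₂ + b * z₂ ^ 2 = 0 → z₁ = 0 ∧ z₂ = 0)
    (hab₀ : ∀ z₁ z₂ : F₀, z₁ ^ 2 + a₀ * z₁ * z₂ + b₀ * z₂ ^ 2 = 0 → z₁ = 0 ∧ z₂ = 0) :
    IsSimpleGroup ↥(phiL j m a b a₀ b₀ A κ hA hκ h2).range := by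
  haveI : IsSimpleGroup (Cfsg.POmega F₀ ⇑(minusQF m F₀ a₀ b₀)) :=
    pomega_isSimple' _ (minusQF m F₀ a₀ b₀) rfl
      (Cfsg.Agent.Lib.Helper44.minusQF_nondegenerate_all m F₀ a₀ b₀ hab₀)
      (by rw [minus_card_idx]; omega)
  obtain ⟨e⟩ := phiL_range_equiv j m a b a₀ b₀ A κ hA hκ h2 hm hab hab₀
  exact e.isSimpleGroup

variable (S : ↥(semiSim ⇑(minusQF m F a b)))
  (hj : IsFixEmb (S : SemiGL ((Fin m ⊕ Fin m) ⊕ Fin 2) F).right j) (ν : F) (hν : ν ≠ 0)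
  (h1 : (ν • ((S : SemiGL ((Fin m ⊕ Fin m) ⊕ Fin 2) F).left :
      Matrix ((Fin m ⊕ Fin m) ⊕ Fin 2) ((Fin m ⊕ Fin m) ⊕ Fin 2) F)) *
    A.map (S : SemiGL ((Fin m ⊕ Fin m) ⊕ Fin 2) F).right = A)

include hj hν h1 in
theorem phiL_comm (ω : ↥(Cfsg.Omega F₀ ⇑(minusQF m F₀ a₀ b₀))) :
    semiAut ⇑(minusQF m F a b) S * phiL j m a b a₀ b₀ A κ hA hκ h2 ω =
      phiL j m a b a₀ b₀ A κ hA hκ h2 ω * semiAut ⇑(minusQF m F a b) S :=
  frameHom_comm j m a b a₀ b₀ S hj A ν κ hA hν hκ h1 h2 (omSim ⇑(minusQF m F₀ a₀ b₀) ω)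

include hj hν h1 in
theorem phiL_range_le :
    (phiL j m a b a₀ b₀ A κ hA hκ h2).range ≤
      Cfsg.Inn (Cfsg.POmega F ⇑(minusQF m F a b)) ⊓
        Subgroup.centralizer {semiAut ⇑(minusQF m F a b) S} := by
  rintro _ ⟨ω, rfl⟩
  refine ⟨phiL_mem_inn j m a b a₀ b₀ A κ hA hκ h2 ω, Subgroup.mem_centralizer_iff.mpr ?_⟩
  intro y hy
  rw [Set.mem_singleton_iff] at hy
  subst hy
  exact phiL_comm j m a b a₀ b₀ A κ hA hκ h2 S hj ν hν h1 ω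

include hj hν h1 in
theorem phiL_normal (hm : 3 ≤ m)
    (hab : ∀ z₁ z₂ : F, z₁ ^ 2 + a * z₁ * z₂ + b * z₂ ^ 2 = 0 → z₁ = 0 ∧ z₂ = 0)
    (hab₀ : ∀ z₁ z₂ : F₀, z₁ ^ 2 + a₀ * z₁ * z₂ + b₀ * z₂ ^ 2 = 0 → z₁ = 0 ∧ z₂ = 0) :
    ∀ l ∈ Cfsg.Inn (Cfsg.POmega F ⇑(minusQF m F a b)) ⊓
        Subgroup.centralizer {semiAut ⇑(minusQF m F a b) S},
      ∀ k ∈ (phiL j m a b a₀ b₀ A κ hA hκ h2).range,
        l * k * l⁻¹ ∈ (phiL j m a b a₀ b₀ A κ hA hκ h2).range := by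
  intro l hl k hk
  have hm2 : 2 ≤ m := by omega
  have hl' : l ∈ (hpSub m hm2 a b hab _ rfl).map (simAut ⇑(minusQF m F a b)) ⊓
      Subgroup.centralizer {semiAut ⇑(minusQF m F a b) S} :=
    ⟨inn_le_hp m hm2 a b hab _ rfl hl.1, hl.2⟩
  rw [centralizer_eq_map j m hm hm2 a b hab a₀ b₀ hab₀ S hj A ν κ hA hν hκ h1 h2] at hl'
  obtain ⟨d, -, rfl⟩ := hl'
  obtain ⟨ω, rfl⟩ := hk
  obtain ⟨ω', hω'⟩ := exists_omSim_conj ⇑(minusQF m F₀ a₀ b₀) d ω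
  refine ⟨ω', ?_⟩
  rw [phiL_apply, hω', MonoidHom.comp_apply, phiL_apply, map_mul, map_mul, map_inv, map_mul,
    map_mul, map_inv]

include hj hν h1 in
theorem dvd_card_phiL (hm : 3 ≤ m)
    (hab : ∀ z₁ z₂ : F, z₁ ^ 2 + a * z₁ * z₂ + b * z₂ ^ 2 = 0 → z₁ = 0 ∧ z₂ = 0)
    (hab₀ : ∀ z₁ z₂ : F₀, z₁ ^ 2 + a₀ * z₁ * z₂ + b₀ * z₂ ^ 2 = 0 → z₁ = 0 ∧ z₂ = 0)
    (p : ℕ) (hp : p.Prime) (hp2 : p ≠ 2)
    (h : p ∣ Nat.card ↥(Cfsg.Inn (Cfsg.POmega F ⇑(minusQF m F a b)) ⊓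
      Subgroup.centralizer {semiAut ⇑(minusQF m F a b) S})) :
    p ∣ Nat.card ↥(phiL j m a b a₀ b₀ A κ hA hκ h2).range := by
  have hm2 : 2 ≤ m := by omega
  have hle : Cfsg.Inn (Cfsg.POmega F ⇑(minusQF m F a b)) ⊓
      Subgroup.centralizer {semiAut ⇑(minusQF m F a b) S} ≤
      (hpSub m hm2 a b hab _ rfl).map (simAut ⇑(minusQF m F a b)) ⊓
        Subgroup.centralizer {semiAut ⇑(minusQF m F a b) S} :=
    inf_le_inf_right _ (inn_le_hp m hm2 a b hab _ rfl)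
  have h3 := dvd_trans h (Subgroup.card_dvd_of_le hle)
  obtain ⟨e⟩ := centralizer_equiv_minus j m hm hm2 a b hab a₀ b₀ hab₀ S hj A ν κ hA hν hκ h1 h2
    ⇑(minusQF m F₀ a₀ b₀) rfl
  rw [Nat.card_congr e.toEquiv] at h3
  have h4 := dvd_trans h3 (card_hp_dvd m hm hm2 a₀ b₀ hab₀ ⇑(minusQF m F₀ a₀ b₀) rfl)
  obtain ⟨e'⟩ := phiL_range_equiv j m a b a₀ b₀ A κ hA hκ h2 hm hab hab₀
  rw [Nat.card_congr e'.toEquiv]
  rcases (Nat.Prime.dvd_mul hp).mp h4 with h5 | h5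
  · exfalso
    have h6 : p ∣ 2 ^ 2 := by
      norm_num
      exact h5
    have h7 := hp.dvd_of_dvd_pow h6
    exact hp2 ((Nat.prime_dvd_prime_iff_eq hp Nat.prime_two).mp h7)
  · exact h5

end frame

end Cfsg.Agent.Lib.Helper8.OMinusBal
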