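import Mathlib
import Cfsg.Prelude.Def_LieTypeDatum
import Cfsg.Agent.Lib.Helper8.OMinusBal.Emb
import Cfsg.Agent.Lib.Helper8.OBal

set_option autoImplicit false

/-!
# Local balance for the minus-type orthogonal groups, field case: the centralizer of the subfield
subgroup
-/

namespace Cfsg.Agent.Lib.Helper8.OMinusBal

open Matrix Module
open Cfsg.Agent.Lib.Helper14
open Cfsg.Agent.Lib.Helper44 (simAut simMult simMult_spec isomAut)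
open Cfsg.Agent.Lib.Helper43.FieldAut (IsFixEmb)

section cent

universe u u₀

variable {F : Type u} [Field F] [Fintype F] {F₀ : Type u₀} [Field F₀] [Fintype F₀]
variable (j : F₀ →+* F) (m : ℕ) (a b : F) (a₀ b₀ : F₀)
  (A : Matrix ((Fin m ⊕ Fin m) ⊕ Fin 2) ((Fin m ⊕ Fin m) ⊕ Fin 2) F) (κ : F)
  (hA : A.det ≠ 0) (hκ : κ ≠ 0)
  (h2 : ∀ v, κ * minusQF m F a b (A *ᵥ v) = Cfsg.quadFormMinus m F (j a₀) (j b₀) v)

set_option maxHeartbeats 3200000 in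
/-- A semisimilarity whose automorphism centralizes the image of `Ω` over the subfield has a
field automorphism fixing the subfield. -/
theorem right_fix (hm : 3 ≤ m)
    (hab : ∀ z₁ z₂ : F, z₁ ^ 2 + a * z₁ * z₂ + b * z₂ ^ 2 = 0 → z₁ = 0 ∧ z₂ = 0)
    (hab₀ : ∀ z₁ z₂ : F₀, z₁ ^ 2 + a₀ * z₁ * z₂ + b₀ * z₂ ^ 2 = 0 → z₁ = 0 ∧ z₂ = 0)
    (Sβ : ↥(semiSim ⇑(minusQF m F a b)))
    (hc : ∀ ω : ↥(Cfsg.Omega F₀ ⇑(minusQF m F₀ a₀ b₀)),
      semiAut ⇑(minusQF m F a b) Sβ * phiL j m a b a₀ b₀ A κ hA hκ h2 ω =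
        phiL j m a b a₀ b₀ A κ hA hκ h2 ω * semiAut ⇑(minusQF m F a b) Sβ) (t : F₀) :
    (Sβ : SemiGL ((Fin m ⊕ Fin m) ⊕ Fin 2) F).right (j t) = j t := by
  classical
  obtain ⟨r, hr⟩ := CharP.exists F
  haveI := hr
  haveI : Fact r.Prime := ⟨CharP.char_is_prime F r⟩
  have hQ := Cfsg.Agent.Lib.Helper44.minusQF_nondegenerate_all m F a b hab
  have hQ₀ := Cfsg.Agent.Lib.Helper44.minusQF_nondegenerate_all m F₀ a₀ b₀ hab₀
  have hn5 : 5 ≤ Fintype.card ((Fin m ⊕ Fin m) ⊕ Fin 2) := by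
    rw [minus_card_idx]
    omega
  obtain ⟨E, hE, hE0⟩ := Cfsg.Agent.Lib.Helper44.minus_ts_three (F := F) m hm a b
  obtain ⟨u, v, hu, hv, huv, hli⟩ := exists_tsp (minusQF m F₀ a₀ b₀) hQ₀ hn5
  obtain ⟨N₀, hN₀⟩ : ∃ N₀ : Matrix ((Fin m ⊕ Fin m) ⊕ Fin 2) ((Fin m ⊕ Fin m) ⊕ Fin 2) F₀,
      N₀ = eichMat (minusQF m F₀ a₀ b₀) u v - 1 := ⟨_, rfl⟩
  have hEt : ∀ t : F₀, eichMat (minusQF m F₀ a₀ b₀) u (t • v) = 1 + t • N₀ := by
    intro t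
    rw [hN₀]
    exact eichMat_smul_sing (minusQF m F₀ a₀ b₀) hv t
  have hE1 : eichMat (minusQF m F₀ a₀ b₀) u v = 1 + N₀ := by
    rw [hN₀]
    abel
  have hN₀sq : N₀ * N₀ = 0 := by
    have h1 := eichMat_mul (minusQF m F₀ a₀ b₀) hu huv huv
    have h3 : v + v = (2 : F₀) • v := (two_smul F₀ v).symm
    rw [h3, hEt 2, hE1] at h1
    have h4 : (1 + N₀) * (1 + N₀) = 1 + (2 : F₀) • N₀ + N₀ * N₀ := by
      rw [Matrix.add_mul, Matrix.mul_add, Matrix.mul_add, Matrix.one_mul, Matrix.mul_one,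
        Matrix.one_mul, two_smul]
      abel
    rw [h4] at h1
    exact add_left_cancel (a := 1 + (2 : F₀) • N₀) (by rw [h1, add_zero])
  have hN₀ne : N₀ ≠ 0 := by
    intro h0
    have hu0 : u ≠ 0 := li2_ne_zero_left hli
    apply hu0
    apply hQ₀.1
    intro y
    show QuadraticMap.polar ⇑(minusQF m F₀ a₀ b₀) u y = 0
    have h1 : eichMat (minusQF m F₀ a₀ b₀) u v *ᵥ y = y := by
      rw [hE1, h0, add_zero, one_mulVec]
    rw [eichMat_mulVec, hv, zero_mul, add_zero] at h1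
    have h3 : (-(QuadraticMap.polar ⇑(minusQF m F₀ a₀ b₀) v y)) • u +
        (QuadraticMap.polar ⇑(minusQF m F₀ a₀ b₀) u y) • v = 0 := by
      linear_combination (norm := module) h1
    exact ((LinearIndependent.pair_iff.mp hli) _ _ h3).2
  obtain ⟨NF, hNF⟩ : ∃ NF : Matrix ((Fin m ⊕ Fin m) ⊕ Fin 2) ((Fin m ⊕ Fin m) ⊕ Fin 2) F,
      NF = N₀.map j := ⟨_, rfl⟩
  have hNFsq : NF * NF = 0 := by
    rw [hNF, ← Matrix.map_mul, hN₀sq, Matrix.map_zero _ (map_zero j)]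
  have hNFne : NF ≠ 0 := by
    intro h0
    apply hN₀ne
    ext i k
    have h1 := congrFun (congrFun h0 i) k
    rw [hNF, Matrix.map_apply, Matrix.zero_apply] at h1
    rw [Matrix.zero_apply]
    exact j.injective (by rw [h1, map_zero])
  obtain ⟨τ, hτ⟩ : ∃ τ : RingAut F, τ = (Sβ : SemiGL ((Fin m ⊕ Fin m) ⊕ Fin 2) F).right :=
    ⟨_, rfl⟩
  rw [← hτ]
  obtain ⟨N', hN'⟩ : ∃ N' : Matrix ((Fin m ⊕ Fin m) ⊕ Fin 2) ((Fin m ⊕ Fin m) ⊕ Fin 2) F,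
      N' = NF.map τ := ⟨_, rfl⟩
  have hN'sq : N' * N' = 0 := by
    have e : (NF * NF).map τ = NF.map τ * NF.map τ := Matrix.map_mul (f := (τ : F →+* F))
    rw [hN', ← e, hNFsq]
    exact Matrix.map_zero _ (map_zero τ)
  obtain ⟨G, hG⟩ : ∃ G : Matrix ((Fin m ⊕ Fin m) ⊕ Fin 2) ((Fin m ⊕ Fin m) ⊕ Fin 2) F,
      G = ((Sβ : SemiGL ((Fin m ⊕ Fin m) ⊕ Fin 2) F).left :
        Matrix ((Fin m ⊕ Fin m) ⊕ Fin 2) ((Fin m ⊕ Fin m) ⊕ Fin 2) F) := ⟨_, rfl⟩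
  have hAu : IsUnit A.det := isUnit_iff_ne_zero.mpr hA
  obtain ⟨G', hG'⟩ : ∃ G' : Matrix ((Fin m ⊕ Fin m) ⊕ Fin 2) ((Fin m ⊕ Fin m) ⊕ Fin 2) F,
      G' = A⁻¹ * G * A.map τ := ⟨_, rfl⟩
  have hG'det : G'.det ≠ 0 := by
    rw [hG', det_mul, det_mul, Matrix.det_nonsing_inv, Ring.inverse_eq_inv']
    have h1 := RingHom.map_det (τ : F →+* F) A
    rw [RingHom.mapMatrix_apply] at h1
    have h3 : (A.map τ).det ≠ 0 := by
      have h4 : (A.map τ).det = τ A.det := h1.symm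
      rw [h4]
      exact (map_ne_zero τ).mpr hA
    have h5 : G.det ≠ 0 := by
      rw [hG]
      exact ((Matrix.isUnit_iff_isUnit_det _).mp (Units.isUnit _)).ne_zero
    exact mul_ne_zero (mul_ne_zero (inv_ne_zero hA) h5) h3
  have hrel : ∀ t : F₀, ∃ lam : F,
      G' * (1 + τ (j t) • N') = lam • ((1 + j t • NF) * G') := by
    intro t
    obtain ⟨ω, hω⟩ : ∃ ω : ↥(Cfsg.Omega F₀ ⇑(minusQF m F₀ a₀ b₀)),
        ω = eo (minusQF m F₀ a₀ b₀) hQ₀ hn5 u (t • v) := ⟨_, rfl⟩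
    have hωmat : omat (minusQF m F₀ a₀ b₀) ω = 1 + t • N₀ := by
      rw [hω, omat_eo (minusQF m F₀ a₀ b₀) hQ₀ hn5 hu
        (by rw [polar_smul_right_eq, huv, mul_zero]), hEt]
    obtain ⟨X, hX⟩ : ∃ X : ↥(Cfsg.Geo.quadSimilarityGroup (F := F) ⇑(minusQF m F a b)),
        X = frameHom j m a b a₀ b₀ A κ hA hκ h2 (omSim ⇑(minusQF m F₀ a₀ b₀) ω) := ⟨_, rfl⟩
    obtain ⟨Dj, hDj⟩ : ∃ Dj : Matrix ((Fin m ⊕ Fin m) ⊕ Fin 2) ((Fin m ⊕ Fin m) ⊕ Fin 2) F,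
        Dj = 1 + j t • NF := ⟨_, rfl⟩
    have hDjmap : (1 + t • N₀).map j = Dj := by
      rw [hDj, hNF, Matrix.map_add j (map_add j), Matrix.map_one j (map_zero j) (map_one j),
        Matrix.map_smul' _ _ _ (map_mul j)]
    have hXmat : ((X : GL ((Fin m ⊕ Fin m) ⊕ Fin 2) F) :
        Matrix ((Fin m ⊕ Fin m) ⊕ Fin 2) ((Fin m ⊕ Fin m) ⊕ Fin 2) F) = A * Dj * A⁻¹ := by
      rw [hX, frameHom_coe, ← hDjmap, ← hωmat]
      rfl
    obtain ⟨Xs, hXs⟩ : ∃ Xs : ↥(semiSim ⇑(minusQF m F a b)),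
        Xs = simToSemi ⇑(minusQF m F a b) X := ⟨_, rfl⟩
    have hβl : semiAut ⇑(minusQF m F a b) Sβ * semiAut ⇑(minusQF m F a b) Xs =
        semiAut ⇑(minusQF m F a b) Xs * semiAut ⇑(minusQF m F a b) Sβ := by
      rw [hXs, semiAut_simToSemi, hX]
      exact hc ω
    obtain ⟨Z, hZ⟩ : ∃ Z : ↥(semiSim ⇑(minusQF m F a b)), Z = Sβ * Xs * Sβ⁻¹ * Xs⁻¹ :=
      ⟨_, rfl⟩
    have hZ1 : semiAut ⇑(minusQF m F a b) Z = 1 := by
      rw [hZ, map_mul, map_mul, map_mul, map_inv, map_inv, hβl, mul_inv_cancel_right,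
        mul_inv_cancel]
    have hZr := semiAut_right_eq_one (minusQF m F a b) hQ hn5 Z hZ1
    obtain ⟨n, hn⟩ := exists_sim_of_right_eq_one ⇑(minusQF m F a b) Z hZr
    have hn1 : simAut ⇑(minusQF m F a b) n = 1 := by
      rw [← semiAut_simToSemi, hn, hZ1]
    obtain ⟨lam, hlam, hmat⟩ := Cfsg.Agent.Lib.Helper44.scalar_of_simAut_eq_one
      (minusQF m F a b) hQ E hE hE0 n hn1
    have hZl : (((Z : SemiGL ((Fin m ⊕ Fin m) ⊕ Fin 2) F).left :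
        GL ((Fin m ⊕ Fin m) ⊕ Fin 2) F) :
        Matrix ((Fin m ⊕ Fin m) ⊕ Fin 2) ((Fin m ⊕ Fin m) ⊕ Fin 2) F) =
        lam • (1 : Matrix ((Fin m ⊕ Fin m) ⊕ Fin 2) ((Fin m ⊕ Fin m) ⊕ Fin 2) F) := by
      rw [← hmat, ← simToSemi_left ⇑(minusQF m F a b) n, hn]
    have hgrp : Z * Xs * Sβ = Sβ * Xs := by
      rw [hZ]
      group
    have hl := congrArg (fun W : ↥(semiSim ⇑(minusQF m F a b)) =>
      (((W : SemiGL ((Fin m ⊕ Fin m) ⊕ Fin 2) F).left : GL ((Fin m ⊕ Fin m) ⊕ Fin 2) F) :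
        Matrix ((Fin m ⊕ Fin m) ⊕ Fin 2) ((Fin m ⊕ Fin m) ⊕ Fin 2) F)) hgrp
    simp only [Subgroup.coe_mul, SemidirectProduct.mul_left, SemidirectProduct.mul_right,
      Units.val_mul, glAut_apply, glMap_coe] at hl
    refine ⟨lam, ?_⟩
    have hXsr : (Xs : SemiGL ((Fin m ⊕ Fin m) ⊕ Fin 2) F).right = 1 := by
      rw [hXs]
      exact simToSemi_right _ X
    have hXsl : (((Xs : SemiGL ((Fin m ⊕ Fin m) ⊕ Fin 2) F).left :
        GL ((Fin m ⊕ Fin m) ⊕ Fin 2) F) :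
        Matrix ((Fin m ⊕ Fin m) ⊕ Fin 2) ((Fin m ⊕ Fin m) ⊕ Fin 2) F) = A * Dj * A⁻¹ := by
      rw [hXs, simToSemi_left]
      exact hXmat
    rw [hZr, hXsr, mul_one, map_one_eq, map_one_eq, hZl, hXsl, ← hG, ← hτ] at hl
    have hrel' : G * (A * Dj * A⁻¹).map τ = lam • ((A * Dj * A⁻¹) * G) := by
      rw [← hl, Matrix.smul_mul, Matrix.smul_mul, Matrix.one_mul]
    have hH : (A * Dj * A⁻¹) * A = A * Dj := by
      rw [Matrix.mul_assoc, Matrix.nonsing_inv_mul A hAu, Matrix.mul_one]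
    have hHt : (A * Dj * A⁻¹).map τ * A.map τ = A.map τ * Dj.map τ := by
      have e1 : ((A * Dj * A⁻¹) * A).map τ = (A * Dj * A⁻¹).map τ * A.map τ :=
        Matrix.map_mul (f := (τ : F →+* F))
      have e2 : (A * Dj).map τ = A.map τ * Dj.map τ := Matrix.map_mul (f := (τ : F →+* F))
      rw [← e1, hH, e2]
    have hfin := conj_rel A (A.map τ) G (A * Dj * A⁻¹) ((A * Dj * A⁻¹).map τ) Dj (Dj.map τ) lam
      hAu hH hHt hrel'
    have hDjτ : Dj.map τ = 1 + τ (j t) • N' := by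
      rw [hDj, hN', Matrix.map_add τ (map_add τ), Matrix.map_one τ (map_zero τ) (map_one τ),
        Matrix.map_smul' _ _ _ (map_mul τ)]
    rw [hDjτ, ← hG', hDj] at hfin
    exact hfin
  obtain ⟨lam₁, h1⟩ := hrel 1
  rw [map_one, map_one] at h1
  obtain ⟨lam, ht⟩ := hrel t
  exact param_fix_of_unip r G' NF N' hG'det hNFsq hN'sq hNFne (j t) (τ (j t)) lam lam₁ h1 ht

variable (S : ↥(semiSim ⇑(minusQF m F a b)))
  (hj : IsFixEmb (S : SemiGL ((Fin m ⊕ Fin m) ⊕ Fin 2) F).right j) (ν : F) (hν : ν ≠ 0)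
  (h1 : (ν • ((S : SemiGL ((Fin m ⊕ Fin m) ⊕ Fin 2) F).left :
      Matrix ((Fin m ⊕ Fin m) ⊕ Fin 2) ((Fin m ⊕ Fin m) ⊕ Fin 2) F)) *
    A.map (S : SemiGL ((Fin m ⊕ Fin m) ⊕ Fin 2) F).right = A)

include hj hν h1 in
set_option maxHeartbeats 3200000 in
/-- An automorphism centralizing the field automorphism and the image of `Ω` over its fixed field
is a power of the field automorphism. -/
theorem cent_phiL (hm : 3 ≤ m)
    (hab : ∀ z₁ z₂ : F, z₁ ^ 2 + a * z₁ * z₂ + b * z₂ ^ 2 = 0 → z₁ = 0 ∧ z₂ = 0)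
    (hab₀ : ∀ z₁ z₂ : F₀, z₁ ^ 2 + a₀ * z₁ * z₂ + b₀ * z₂ ^ 2 = 0 → z₁ = 0 ∧ z₂ = 0)
    (β : MulAut (Cfsg.POmega F ⇑(minusQF m F a b)))
    (hβ : β ∈ Subgroup.centralizer {semiAut ⇑(minusQF m F a b) S})
    (hc : ∀ l ∈ (phiL j m a b a₀ b₀ A κ hA hκ h2).range, β * l = l * β) :
    β ∈ Subgroup.zpowers (semiAut ⇑(minusQF m F a b) S) := by
  have hQ₀ := Cfsg.Agent.Lib.Helper44.minusQF_nondegenerate_all m F₀ a₀ b₀ hab₀
  have hAut := minus_gamma_top m hm a b hab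
  obtain ⟨Sβ, rfl⟩ := semiAut_surjective ⇑(minusQF m F a b) hAut β
  have hfix : ∀ t : F₀, (Sβ : SemiGL ((Fin m ⊕ Fin m) ⊕ Fin 2) F).right (j t) = j t :=
    right_fix j m a b a₀ b₀ A κ hA hκ h2 hm hab hab₀ Sβ (fun ω => hc _ ⟨ω, rfl⟩)
  have hτ : (Sβ : SemiGL ((Fin m ⊕ Fin m) ⊕ Fin 2) F).right ∈
      Subgroup.zpowers (S : SemiGL ((Fin m ⊕ Fin m) ⊕ Fin 2) F).right :=
    Cfsg.Agent.Lib.Helper8.OBal.mem_zpowers_of_fixes _ _ (fun c hc' => by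
      obtain ⟨c₀, rfl⟩ := (hj c).mp hc'
      exact hfix c₀)
  obtain ⟨n, hn⟩ := Subgroup.mem_zpowers_iff.mp hτ
  have hWr : ((Sβ * S ^ (-n) : ↥(semiSim ⇑(minusQF m F a b))) :
      SemiGL ((Fin m ⊕ Fin m) ⊕ Fin 2) F).right = 1 := by
    have e : ((S : SemiGL ((Fin m ⊕ Fin m) ⊕ Fin 2) F) ^ (-n)).right =
        (S : SemiGL ((Fin m ⊕ Fin m) ⊕ Fin 2) F).right ^ (-n) :=
      map_zpow SemidirectProduct.rightHom _ _
    rw [Subgroup.coe_mul, SemidirectProduct.mul_right, Subgroup.coe_zpow, e, ← hn, ← _root_.zpow_add,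
      add_neg_cancel, zpow_zero]
  obtain ⟨s, hs⟩ := exists_sim_of_right_eq_one ⇑(minusQF m F a b) _ hWr
  have hsaut : simAut ⇑(minusQF m F a b) s =
      semiAut ⇑(minusQF m F a b) Sβ * (semiAut ⇑(minusQF m F a b) S) ^ (-n) := by
    rw [← semiAut_simToSemi, hs, map_mul, map_zpow]
  have hxc : semiAut ⇑(minusQF m F a b) S * simAut ⇑(minusQF m F a b) s =
      simAut ⇑(minusQF m F a b) s * semiAut ⇑(minusQF m F a b) S := by
    have h3 := (Subgroup.mem_centralizer_iff.mp hβ) _ rfl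
    rw [hsaut, ← mul_assoc, h3, mul_assoc, mul_assoc]
    congr 1
    exact ((Commute.refl (semiAut ⇑(minusQF m F a b) S)).zpow_right (-n)).eq
  obtain ⟨d, e, he0, hmat⟩ := exists_of_comm j m hm a b hab a₀ b₀ S hj A ν κ hA hν hκ h1 h2 s
    hxc
  have hsd : simAut ⇑(minusQF m F a b) s =
      simAut ⇑(minusQF m F a b) (frameHom j m a b a₀ b₀ A κ hA hκ h2 d) :=
    Cfsg.Agent.Lib.Helper44.simAut_eq_of_smul _ s _ e hmat
  have hd1 : simAut ⇑(minusQF m F₀ a₀ b₀) d = 1 := by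
    have hinj := conj_injective_POmega (minusQF m F₀ a₀ b₀) hQ₀ (by rw [minus_card_idx]; omega)
    apply MulEquiv.ext
    intro q
    obtain ⟨ω, rfl⟩ := QuotientGroup.mk_surjective q
    rw [MulAut.one_apply]
    apply hinj
    rw [conj_apply_aut', ← simAut_omSim, ← map_mul, ← map_inv, ← map_mul]
    have hcomm : simAut ⇑(minusQF m F a b) (frameHom j m a b a₀ b₀ A κ hA hκ h2 d) *
        phiL j m a b a₀ b₀ A κ hA hκ h2 ω =
        phiL j m a b a₀ b₀ A κ hA hκ h2 ω *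
          simAut ⇑(minusQF m F a b) (frameHom j m a b a₀ b₀ A κ hA hκ h2 d) := by
      rw [← hsd, hsaut]
      have hβl := hc _ ⟨ω, rfl⟩
      have hxl := phiL_comm j m a b a₀ b₀ A κ hA hκ h2 S hj ν hν h1 ω
      have hxnl : (semiAut ⇑(minusQF m F a b) S) ^ (-n) * phiL j m a b a₀ b₀ A κ hA hκ h2 ω =
          phiL j m a b a₀ b₀ A κ hA hκ h2 ω * (semiAut ⇑(minusQF m F a b) S) ^ (-n) :=
        ((show Commute (semiAut ⇑(minusQF m F a b) S) (phiL j m a b a₀ b₀ A κ hA hκ h2 ω)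
          from hxl).zpow_left (-n)).eq
      rw [mul_assoc, hxnl, ← mul_assoc, hβl, mul_assoc]
    have h5 : simAut ⇑(minusQF m F a b) (frameHom j m a b a₀ b₀ A κ hA hκ h2
        (d * omSim ⇑(minusQF m F₀ a₀ b₀) ω * d⁻¹ * (omSim ⇑(minusQF m F₀ a₀ b₀) ω)⁻¹)) = 1 := by
      simp only [map_mul, map_inv]
      rw [phiL_apply] at hcomm
      rw [hcomm, mul_inv_cancel_right, mul_inv_cancel]
    rw [frameHom_simAut_eq_one_iff j m hm a b hab a₀ b₀ hab₀ A κ hA hκ h2, map_mul, map_inv,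
      mul_inv_eq_one] at h5
    exact h5
  have hs1 : simAut ⇑(minusQF m F a b) s = 1 := by
    rw [hsd]
    exact (frameHom_simAut_eq_one_iff j m hm a b hab a₀ b₀ hab₀ A κ hA hκ h2 d).mpr hd1
  rw [hsaut] at hs1
  have hfin : semiAut ⇑(minusQF m F a b) Sβ = (semiAut ⇑(minusQF m F a b) S) ^ n := by
    have h6 := mul_eq_one_iff_eq_inv.mp hs1
    rw [h6, _root_.zpow_neg, inv_inv]
  rw [hfin]
  exact Subgroup.zpow_mem_zpowers _ n

end cent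

end Cfsg.Agent.Lib.Helper8.OMinusBal
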