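import Mathlib
import Cfsg.Prelude.Def_LieTypeDatum
import Cfsg.Agent.Lib.Helper8.OMinusBal.Cent
import Cfsg.Agent.Lib.Helper43.OMinusBal.Defs

set_option autoImplicit false

/-!
# Local balance for the minus-type orthogonal groups: the field case (`p` odd)
-/

namespace Cfsg.Agent.Lib.Helper8.OMinusBal

open Matrix Module
open Cfsg.Agent.Lib.Helper14
open Cfsg.Agent.Lib.Helper44 (simAut simMult simMult_spec isomAut)
open Cfsg.Agent.Lib.Helper43.FieldAut (IsFixEmb fixF mem_fixF)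

section main

universe u

variable {F : Type u} [Field F] [Fintype F]

set_option maxHeartbeats 3200000 in
/-- A semisimilarity with a frame induces an automorphism which becomes a standard field
automorphism under an identification with the group of the frame form. -/
theorem field_class_of_frame (m : ℕ) (a b : F)
    (hab : ∀ z₁ z₂ : F, z₁ ^ 2 + a * z₁ * z₂ + b * z₂ ^ 2 = 0 → z₁ = 0 ∧ z₂ = 0)
    (S : ↥(semiSim ⇑(minusQF m F a b))) (a' b' : F)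
    (hab' : ∀ z₁ z₂ : F, z₁ ^ 2 + a' * z₁ * z₂ + b' * z₂ ^ 2 = 0 → z₁ = 0 ∧ z₂ = 0)
    (hσa : (S : SemiGL ((Fin m ⊕ Fin m) ⊕ Fin 2) F).right a' = a')
    (hσb : (S : SemiGL ((Fin m ⊕ Fin m) ⊕ Fin 2) F).right b' = b')
    (A : Matrix ((Fin m ⊕ Fin m) ⊕ Fin 2) ((Fin m ⊕ Fin m) ⊕ Fin 2) F) (ν κ : F)
    (hA : A.det ≠ 0) (hν : ν ≠ 0) (hκ : κ ≠ 0)
    (h1 : (ν • ((S : SemiGL ((Fin m ⊕ Fin m) ⊕ Fin 2) F).left :
        Matrix ((Fin m ⊕ Fin m) ⊕ Fin 2) ((Fin m ⊕ Fin m) ⊕ Fin 2) F)) *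
      A.map (S : SemiGL ((Fin m ⊕ Fin m) ⊕ Fin 2) F).right = A)
    (h2 : ∀ v, κ * minusQF m F a b (A *ᵥ v) = Cfsg.quadFormMinus m F a' b' v) :
    ∃ ψ : Cfsg.POmega F ⇑(minusQF m F a b) ≃* Cfsg.POmega F (Cfsg.quadFormMinus m F a' b'),
      Cfsg.IsFieldAutPOmegaOf (Cfsg.quadFormMinus m F a' b')
        (S : SemiGL ((Fin m ⊕ Fin m) ⊕ Fin 2) F).right
        ((ψ.symm.trans (semiAut ⇑(minusQF m F a b) S)).trans ψ) := by
  obtain ⟨σ, hσ⟩ : ∃ σ : RingAut F, σ = (S : SemiGL ((Fin m ⊕ Fin m) ⊕ Fin 2) F).right :=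
    ⟨_, rfl⟩
  rw [← hσ] at hσa hσb h1 ⊢
  obtain ⟨tc, td, htd, ht1, ht2⟩ := exists_twist a b a' b' hab hab'
  obtain ⟨T, hTdef⟩ : ∃ T : GL ((Fin m ⊕ Fin m) ⊕ Fin 2) F, T = twistGL m tc td htd := ⟨_, rfl⟩
  have hT : ∀ v, minusQF m F a b
      ((T : Matrix ((Fin m ⊕ Fin m) ⊕ Fin 2) ((Fin m ⊕ Fin m) ⊕ Fin 2) F) *ᵥ v) =
      Cfsg.quadFormMinus m F a' b' v := by
    intro v
    rw [hTdef, minusQF_coe, twistGL_coe]
    exact twistMat_quad m a b tc td a' b' ht1 ht2 v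
  have hσcompat : ∀ v : (Fin m ⊕ Fin m) ⊕ Fin 2 → F,
      Cfsg.quadFormMinus m F a' b' (fun i => σ (v i)) = σ (Cfsg.quadFormMinus m F a' b' v) := by
    intro v
    have h := quadFormMinus_map m a' b' σ v
    rw [hσa, hσb] at h
    exact h
  obtain ⟨S₀, hS₀l, hS₀r⟩ : ∃ S₀ : ↥(semiSim (Cfsg.quadFormMinus m F a' b')),
      (S₀ : SemiGL ((Fin m ⊕ Fin m) ⊕ Fin 2) F).left = 1 ∧
      (S₀ : SemiGL ((Fin m ⊕ Fin m) ⊕ Fin 2) F).right = σ := by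
    refine ⟨⟨⟨1, σ⟩, ?_⟩, rfl, rfl⟩
    rw [mem_semiSim_iff]
    refine ⟨1, fun v => ?_⟩
    unfold sact
    rw [Units.val_one, one_mulVec, Units.val_one, one_mul]
    exact hσcompat v
  obtain ⟨S', hS'⟩ : ∃ S' : ↥(semiSim ⇑(minusQF m F a b)),
      S' = ⟨SemidirectProduct.inl T * (S₀ : SemiGL ((Fin m ⊕ Fin m) ⊕ Fin 2) F) *
        (SemidirectProduct.inl T)⁻¹,
        trans_mem_semiSim ⇑(minusQF m F a b) (Cfsg.quadFormMinus m F a' b') T hT _ S₀.2⟩ :=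
    ⟨_, rfl⟩
  have hS'c : (S' : SemiGL ((Fin m ⊕ Fin m) ⊕ Fin 2) F) =
      SemidirectProduct.inl T * (S₀ : SemiGL ((Fin m ⊕ Fin m) ⊕ Fin 2) F) *
        (SemidirectProduct.inl T)⁻¹ := by
    rw [hS']
  have hS'r : (S' : SemiGL ((Fin m ⊕ Fin m) ⊕ Fin 2) F).right = σ := by
    rw [hS'c, SemidirectProduct.mul_right, SemidirectProduct.mul_right,
      SemidirectProduct.inv_right, SemidirectProduct.right_inl, inv_one, mul_one, one_mul, hS₀r]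
  have hS'l : (S' : SemiGL ((Fin m ⊕ Fin m) ⊕ Fin 2) F).left * glMap σ T = T := by
    rw [hS'c, SemidirectProduct.mul_left, SemidirectProduct.mul_left,
      SemidirectProduct.mul_right, SemidirectProduct.left_inl, SemidirectProduct.right_inl,
      hS₀l, hS₀r, one_mul, map_one, mul_one, SemidirectProduct.inv_left,
      SemidirectProduct.left_inl, SemidirectProduct.right_inl, inv_one, map_one,
      MulAut.one_apply, glAut_apply, mul_assoc, ← map_mul, inv_mul_cancel, map_one, mul_one]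
  have hS'm : (1 : F) • ((S' : SemiGL ((Fin m ⊕ Fin m) ⊕ Fin 2) F).left :
      Matrix ((Fin m ⊕ Fin m) ⊕ Fin 2) ((Fin m ⊕ Fin m) ⊕ Fin 2) F) *
      (T : Matrix ((Fin m ⊕ Fin m) ⊕ Fin 2) ((Fin m ⊕ Fin m) ⊕ Fin 2) F).map σ =
      (T : Matrix ((Fin m ⊕ Fin m) ⊕ Fin 2) ((Fin m ⊕ Fin m) ⊕ Fin 2) F) := by
    have h3 := congrArg (fun g : GL ((Fin m ⊕ Fin m) ⊕ Fin 2) F =>
      (g : Matrix ((Fin m ⊕ Fin m) ⊕ Fin 2) ((Fin m ⊕ Fin m) ⊕ Fin 2) F)) hS'l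
    simp only [Units.val_mul, glMap_coe] at h3
    rw [one_smul]
    exact h3
  have hTdet : (T : Matrix ((Fin m ⊕ Fin m) ⊕ Fin 2) ((Fin m ⊕ Fin m) ⊕ Fin 2) F).det ≠ 0 :=
    ((Matrix.isUnit_iff_isUnit_det _).mp (Units.isUnit T)).ne_zero
  obtain ⟨d, -, -, hconj⟩ := semi_conj_of_frames (minusQF m F a b)
    (Cfsg.quadFormMinus m F a' b') S S' (by rw [hS'r, hσ]) A
    (T : Matrix ((Fin m ⊕ Fin m) ⊕ Fin 2) ((Fin m ⊕ Fin m) ⊕ Fin 2) F) ν κ 1 1 hA hTdet hν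
    one_ne_zero one_ne_zero hκ (by rw [← hσ]; exact h1) (by rw [← hσ]; exact hS'm) h2
    (by
      intro v
      rw [one_mul]
      exact hT v)
  have htrans := transPO_semiAut ⇑(minusQF m F a b) (Cfsg.quadFormMinus m F a' b') T hT S₀
  rw [← hS'] at htrans
  obtain ⟨P, hP⟩ : ∃ P, P = transPO ⇑(minusQF m F a b) (Cfsg.quadFormMinus m F a' b') T hT :=
    ⟨_, rfl⟩
  rw [← hP] at htrans
  obtain ⟨c, hc⟩ : ∃ c : MulAut (Cfsg.POmega F ⇑(minusQF m F a b)),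
      c = simAut ⇑(minusQF m F a b) d := ⟨_, rfl⟩
  rw [← hc] at hconj
  refine ⟨(c : Cfsg.POmega F ⇑(minusQF m F a b) ≃* Cfsg.POmega F ⇑(minusQF m F a b)).trans
    P.symm, ?_⟩
  have key : (((c : Cfsg.POmega F ⇑(minusQF m F a b) ≃* Cfsg.POmega F ⇑(minusQF m F a b)).trans
      P.symm).symm.trans (semiAut ⇑(minusQF m F a b) S)).trans
      ((c : Cfsg.POmega F ⇑(minusQF m F a b) ≃* Cfsg.POmega F ⇑(minusQF m F a b)).trans
        P.symm) = semiAut (Cfsg.quadFormMinus m F a' b') S₀ := by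
    apply MulEquiv.ext
    intro q
    have h3 := congrArg (fun β : MulAut (Cfsg.POmega F ⇑(minusQF m F a b)) => β (P q)) hconj
    rw [← htrans] at h3
    simp only [MulEquiv.trans_apply, MulEquiv.symm_apply_apply, MulAut.mul_apply,
      MulAut.inv_apply] at h3
    show P.symm (c (semiAut ⇑(minusQF m F a b) S (c.symm (P q)))) = _
    rw [← h3, MulEquiv.symm_apply_apply]
  rw [key]
  intro s s' hs'
  exact (induced_iff_semiAut (Cfsg.quadFormMinus m F a' b') S₀ _).mpr rfl s s' (by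
    rw [hs', hS₀l, hS₀r, inv_one, Units.val_one, Matrix.one_mul, Matrix.mul_one])

set_option maxHeartbeats 3200000 in
/-- The field case of local balance for `PΩ⁻`, for a general carrier function. -/
theorem partA_aux (m : ℕ) (hm : 3 ≤ m) (a b : F)
    (hab : ∀ z₁ z₂ : F, z₁ ^ 2 + a * z₁ * z₂ + b * z₂ ^ 2 = 0 → z₁ = 0 ∧ z₂ = 0)
    (Qf : ((Fin m ⊕ Fin m) ⊕ Fin 2 → F) → F) (hQf : ⇑(minusQF m F a b) = Qf)
    (A : Subgroup (MulAut (Cfsg.POmega F Qf)))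
    (hinn : ∀ k : Cfsg.POmega F Qf, MulAut.conj k ∈ A) {p : ℕ} [Fact p.Prime] (hp2 : p ≠ 2)
    (x : MulAut (Cfsg.POmega F Qf)) (hord : orderOf x = p)
    (hnot : ¬ ∃ g : GL ((Fin m ⊕ Fin m) ⊕ Fin 2) F,
      g ∈ Cfsg.Geo.quadSimilarityGroup (F := F) Qf ∧
      Cfsg.PreservesSingularClassesMinus m a b
        (g : Matrix ((Fin m ⊕ Fin m) ⊕ Fin 2) ((Fin m ⊕ Fin m) ⊕ Fin 2) F) ∧
      Cfsg.IsInducedBySemilinearPOmega Qf g (RingEquiv.refl F) x) :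
    Cfsg.pPrimeCore p ↥(A ⊓ Subgroup.centralizer {x}) ≠ ⊥ ↔
      ((∃ (a' b' : F) (ψ : Cfsg.POmega F Qf ≃* Cfsg.POmega F (Cfsg.quadFormMinus m F a' b'))
          (σ : F ≃+* F),
          (∀ z₁ z₂ : F, z₁ ^ 2 + a' * z₁ * z₂ + b' * z₂ ^ 2 = 0 → z₁ = 0 ∧ z₂ = 0) ∧
          σ ≠ RingEquiv.refl F ∧ σ a' = a' ∧ σ b' = b' ∧
          Cfsg.IsFieldAutPOmegaOf (Cfsg.quadFormMinus m F a' b') σ ((ψ.symm.trans x).trans ψ)) ∧
        Nat.Coprime p (Nat.card ↥(MonoidHom.eqLocus x.toMonoidHom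
          (MonoidHom.id (Cfsg.POmega F Qf))))) := by
  subst hQf
  have hp : p.Prime := Fact.out
  have hpodd : Odd p := hp.eq_two_or_odd'.resolve_left hp2
  have hm2 : 2 ≤ m := by omega
  have hQ := Cfsg.Agent.Lib.Helper44.minusQF_nondegenerate_all m F a b hab
  have hAut := minus_gamma_top m hm a b hab
  have hn5 : 5 ≤ Fintype.card ((Fin m ⊕ Fin m) ⊕ Fin 2) := by
    rw [minus_card_idx]
    omega
  have hn7 : 7 ≤ Fintype.card ((Fin m ⊕ Fin m) ⊕ Fin 2) := by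
    rw [minus_card_idx]
    omega
  obtain ⟨E, hE, hE0⟩ := Cfsg.Agent.Lib.Helper44.minus_ts_three (F := F) m hm a b
  obtain ⟨S, rfl⟩ := semiAut_surjective ⇑(minusQF m F a b) hAut x
  -- the field automorphism is not trivial
  have hσne : (S : SemiGL ((Fin m ⊕ Fin m) ⊕ Fin 2) F).right ≠ 1 := by
    intro hr1
    obtain ⟨g, hg⟩ := exists_sim_of_right_eq_one ⇑(minusQF m F a b) S hr1
    have hxg : semiAut ⇑(minusQF m F a b) S = simAut ⇑(minusQF m F a b) g := by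
      rw [← hg, semiAut_simToSemi]
    have hgp : simAut ⇑(minusQF m F a b) (g ^ p) = 1 := by
      rw [map_pow, ← hxg, ← hord, pow_orderOf_eq_one]
    obtain ⟨lam, hlam, hmat⟩ := Cfsg.Agent.Lib.Helper44.scalar_of_simAut_eq_one
      (minusQF m F a b) hQ E hE hE0 (g ^ p) hgp
    have hgpH : g ^ p ∈ hpSub m hm2 a b hab _ rfl := by
      rw [mem_hpSub, hmat, minus_preserves_smul m a b lam hlam]
      exact minus_preserves_one m hm2 a b hab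
    obtain ⟨u₀, hu₀⟩ := minus_exists_nonsing m a b
    obtain ⟨c, hcdef⟩ : ∃ c : ↥(Cfsg.isometryGroup F ⇑(minusQF m F a b)),
        c = prodElt (minusQF m F a b) hQ [u₀] (by
          intro u hu
          rw [List.mem_singleton] at hu
          rw [hu]
          exact hu₀) := ⟨_, rfl⟩
    have hcodd : Odd (((c : GL ((Fin m ⊕ Fin m) ⊕ Fin 2) F) :
        Matrix ((Fin m ⊕ Fin m) ⊕ Fin 2) ((Fin m ⊕ Fin m) ⊕ Fin 2) F) - 1).rank := by
      have h := Cfsg.Agent.Lib.Helper44.rank_prodElt (minusQF m F a b) hQ [u₀] (by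
        intro u hu
        rw [List.mem_singleton] at hu
        rw [hu]
        exact hu₀)
      rw [List.length_singleton] at h
      rw [hcdef, Nat.odd_iff]
      exact h
    have hgH : g ∈ hpSub m hm2 a b hab _ rfl := by
      refine mem_of_odd_pow (hpSub m hm2 a b hab _ rfl)
        ⟨(c : GL ((Fin m ⊕ Fin m) ⊕ Fin 2) F),
          Cfsg.Agent.Lib.Helper44.isometryGroup_le_sim _ c.2⟩ (fun d => ?_) g p hpodd hgpH
      exact minus_preserves_or m hm2 a b hab d c hcodd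
    apply hnot
    refine ⟨(g : GL ((Fin m ⊕ Fin m) ⊕ Fin 2) F), g.2, hgH, ?_⟩
    rw [hxg]
    intro s s' hs'
    rw [Cfsg.Agent.Lib.Helper44.simAut_mk]
    congr 1
    apply Subtype.ext
    apply isom_ext
    rw [hs', Cfsg.Agent.Lib.Helper44.simConj_coe, Cfsg.Agent.Lib.Helper44.map_refl_eq]
  have hσp : (S : SemiGL ((Fin m ⊕ Fin m) ⊕ Fin 2) F).right ^ p = 1 := by
    have h := congrArg (typeHom (minusQF m F a b) hQ hn5 hAut)
      (pow_orderOf_eq_one (semiAut ⇑(minusQF m F a b) S))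
    rw [hord, map_pow, typeHom_semiAut, map_one] at h
    exact h
  have hσo : orderOf (S : SemiGL ((Fin m ⊕ Fin m) ⊕ Fin 2) F).right = p :=
    orderOf_eq_prime hσp hσne
  have hSp : semiAut ⇑(minusQF m F a b) S ^ p = 1 := by
    rw [← hord, pow_orderOf_eq_one]
  have hZr' : ((S ^ p : ↥(semiSim ⇑(minusQF m F a b))) :
      SemiGL ((Fin m ⊕ Fin m) ⊕ Fin 2) F).right = 1 := by
    rw [Subgroup.coe_pow, semi_pow_right, hσp]
  obtain ⟨n, hn⟩ := exists_sim_of_right_eq_one ⇑(minusQF m F a b) (S ^ p) hZr'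
  have hn1 : simAut ⇑(minusQF m F a b) n = 1 := by
    rw [← semiAut_simToSemi, hn, map_pow, hSp]
  obtain ⟨lam, hlam, hmat⟩ := Cfsg.Agent.Lib.Helper44.scalar_of_simAut_eq_one (minusQF m F a b)
    hQ E hE hE0 n hn1
  have hpow : ((((S : SemiGL ((Fin m ⊕ Fin m) ⊕ Fin 2) F) ^ p).left :
      GL ((Fin m ⊕ Fin m) ⊕ Fin 2) F) :
      Matrix ((Fin m ⊕ Fin m) ⊕ Fin 2) ((Fin m ⊕ Fin m) ⊕ Fin 2) F) =
      lam • (1 : Matrix ((Fin m ⊕ Fin m) ⊕ Fin 2) ((Fin m ⊕ Fin m) ⊕ Fin 2) F) := by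
    rw [← hmat, ← simToSemi_left ⇑(minusQF m F a b) n, hn, Subgroup.coe_pow]
  -- the fixed field
  haveI : Fintype ↥(fixF (S : SemiGL ((Fin m ⊕ Fin m) ⊕ Fin 2) F).right) := Fintype.ofFinite _
  have hj := Cfsg.Agent.Lib.Helper8.OOdd.isFixEmb_sub
    (S : SemiGL ((Fin m ⊕ Fin m) ⊕ Fin 2) F).right
  obtain ⟨b₀, hb₀⟩ := exists_aniso ↥(fixF (S : SemiGL ((Fin m ⊕ Fin m) ⊕ Fin 2) F).right)
  have hab' := aniso_lift (S : SemiGL ((Fin m ⊕ Fin m) ⊕ Fin 2) F).right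
    (fixF (S : SemiGL ((Fin m ⊕ Fin m) ⊕ Fin 2) F).right).subtype hj p hpodd hσp 1 b₀ hb₀
  have hσa : (S : SemiGL ((Fin m ⊕ Fin m) ⊕ Fin 2) F).right
      ((fixF (S : SemiGL ((Fin m ⊕ Fin m) ⊕ Fin 2) F).right).subtype 1) =
      (fixF (S : SemiGL ((Fin m ⊕ Fin m) ⊕ Fin 2) F).right).subtype 1 := (hj _).mpr ⟨1, rfl⟩
  have hσb : (S : SemiGL ((Fin m ⊕ Fin m) ⊕ Fin 2) F).right
      ((fixF (S : SemiGL ((Fin m ⊕ Fin m) ⊕ Fin 2) F).right).subtype b₀) =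
      (fixF (S : SemiGL ((Fin m ⊕ Fin m) ⊕ Fin 2) F).right).subtype b₀ := (hj _).mpr ⟨b₀, rfl⟩
  obtain ⟨A₁, ν, κ, hA, hν, hκ, h1, h2⟩ := exists_frame m a b hab
    (S : SemiGL ((Fin m ⊕ Fin m) ⊕ Fin 2) F) S.2 p hσo hp.pos lam hlam hpow _ _ hσa hσb hab'
  -- `x` is a field automorphism
  have hfield : ∃ (a' b' : F)
      (ψ : Cfsg.POmega F ⇑(minusQF m F a b) ≃* Cfsg.POmega F (Cfsg.quadFormMinus m F a' b'))
      (σ : F ≃+* F),
      (∀ z₁ z₂ : F, z₁ ^ 2 + a' * z₁ * z₂ + b' * z₂ ^ 2 = 0 → z₁ = 0 ∧ z₂ = 0) ∧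
      σ ≠ RingEquiv.refl F ∧ σ a' = a' ∧ σ b' = b' ∧
      Cfsg.IsFieldAutPOmegaOf (Cfsg.quadFormMinus m F a' b') σ
        ((ψ.symm.trans (semiAut ⇑(minusQF m F a b) S)).trans ψ) := by
    obtain ⟨ψ, hψ⟩ := field_class_of_frame m a b hab S _ _ hab' hσa hσb A₁ ν κ hA hν hκ h1 h2
    exact ⟨_, _, ψ, _, hab', hσne, hσa, hσb, hψ⟩
  -- the criterion
  have hIA : Cfsg.Inn (Cfsg.POmega F ⇑(minusQF m F a b)) ≤ A := by
    rintro _ ⟨k, rfl⟩
    exact hinn k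
  have key := Cfsg.Agent.Lib.Helper8.OBal.core_criterion p A
    (Cfsg.Inn (Cfsg.POmega F ⇑(minusQF m F a b))) inferInstance hIA
    (semiAut ⇑(minusQF m F a b) S)
    (phiL (fixF (S : SemiGL ((Fin m ⊕ Fin m) ⊕ Fin 2) F).right).subtype m a b 1 b₀ A₁ κ hA hκ
      h2).range
    (phiL_range_le _ m a b 1 b₀ A₁ κ hA hκ h2 S hj ν hν h1)
    (phiL_range_simple _ m a b 1 b₀ A₁ κ hA hκ h2 hm hab hb₀)
    (phiL_normal _ m a b 1 b₀ A₁ κ hA hκ h2 S hj ν hν h1 hm hab hb₀)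
    (dvd_card_phiL _ m a b 1 b₀ A₁ κ hA hκ h2 S hj ν hν h1 hm hab hb₀ p hp hp2)
    (fun β hβ hc => cent_phiL _ m a b 1 b₀ A₁ κ hA hκ h2 S hj ν hν h1 hm hab hb₀ β hβ hc)
    hord
  rw [card_fix_eq_gen (conj_injective_POmega (minusQF m F a b) hQ hn7), key]
  exact ⟨fun hc => ⟨hfield, hc⟩, fun hc => hc.2⟩

/-- **Package P-A of S2733**: local balance for `PΩ⁻_{2m+2}(F)`, odd `p` (field
automorphisms). -/
theorem partA : Cfsg.Agent.Lib.Helper43.OMinusBal.PartA.{u} := by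
  intro F _ _ r _ _ m hm a b hab _ A hinn p _ _ hp2 x _ hord hnot
  exact partA_aux m hm a b hab _ (minusQF_coe m F a b) A hinn hp2 x hord hnot

end main

end Cfsg.Agent.Lib.Helper8.OMinusBal
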